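import Cfsg.Agent.H980.SK.SuzWords
import Cfsg.Agent.H738.SK.Transport
import Cfsg.Agent.H896.Van.Suz

/-!
# S3010 (Sidki pairs): the row of the Suzuki group (helper980)
-/

set_option autoImplicit false
set_option linter.unusedVariables false
set_option linter.style.haveILetI false
set_option linter.unusedSectionVars false

universe u

open Subgroup Cfsg
open Cfsg.Spor Cfsg.Agent.H282.SK
open Cfsg.Agent.KFacts.SuzLFour Cfsg.Agent.H980.SK.SuzW Cfsg.Agent.SporadicRecognition.SuzOrder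
open Cfsg.Agent.SuzThree.CentA (z0)
open Cfsg.Agent.PreUniq.Spor.SuzP

namespace Cfsg.Agent.H980.SK.Suz

variable {G : Type u} [Group G] [Finite G] {V K : Subgroup G}

/-- the maps `G → Aut(Suz)` and `Suz → K` of a counterexample with `K ≃* Suz` -/
structure Dat (K : Subgroup G) where
  φ : G →* MulAut Spor.Suz
  i : Spor.Suz →* G
  φinj : Function.Injective φ
  iinj : Function.Injective i
  hi : ∀ s, φ (i s) = MulAut.conj s
  mem : ∀ s, i s ∈ K
  ex : ∀ k ∈ K, ∃ s, i s = k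

theorem exists_dat (h : Cx V K) (e : K ≃* Spor.Suz) : Nonempty (Dat K) := by
  obtain ⟨φ, hφ, hφK, -⟩ := h.exists_toAut e
  refine ⟨⟨φ, K.subtype.comp e.symm.toMonoidHom, hφ, ?_, ?_, ?_, ?_⟩⟩
  · intro a b hab
    exact e.symm.injective (Subtype.ext hab)
  · intro s
    show φ (e.symm s : K) = _
    rw [hφK, MulEquiv.apply_symm_apply]
  · intro s
    exact (e.symm s).2
  · intro k hk
    refine ⟨e ⟨k, hk⟩, ?_⟩
    show ((e.symm (e ⟨k, hk⟩) : K) : G) = k
    rw [MulEquiv.symm_apply_apply]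

namespace Dat

variable (d : Dat K)

theorem conj_eq (g : G) (s : Spor.Suz) : g * d.i s * g⁻¹ = d.i (d.φ g s) := by
  apply d.φinj
  rw [map_mul, map_mul, map_inv, d.hi, d.hi, KFacts.AutChain.conj_apply_eq]

theorem fix {g : G} {s : Spor.Suz} (h : Commute g (d.i s)) : d.φ g s = s := by
  apply d.iinj
  rw [← d.conj_eq, h.eq, mul_inv_cancel_right]

theorem sq (h : Cx V K) {w : G} (hw : w ∈ V) : d.φ w * d.φ w = 1 := by
  rw [← map_mul, h.sq hw, map_one]

theorem eq_one {w : G} (hw : d.φ w = 1) : w = 1 := d.φinj (by rw [hw, map_one])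

theorem kill_e0 (h : Cx V K) {g : Spor.Suz} (hv : d.i (g * e0 * g⁻¹) ∈ V) : False := by
  have ho : orderOf (g * z13 * g⁻¹) = 13 := by
    rw [CpAutSuz.Classes.orderOf_conj, order_z13]
  have ho' : orderOf (d.i (g * z13 * g⁻¹)) = 13 := by
    rw [orderOf_injective d.i d.iinj, ho]
  obtain ⟨w, hwV, hw1, hc⟩ := h.t0 hv (x := d.i (g * z13 * g⁻¹)) (by rw [ho']; decide) (by
    rw [← map_inv, ← map_mul, ← map_mul, ← map_inv]
    congr 1
    calc g * e0 * g⁻¹ * (g * z13 * g⁻¹) * (g * e0 * g⁻¹)⁻¹ = g * (e0 * z13 * e0⁻¹) * g⁻¹ := by group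
      _ = (g * z13 * g⁻¹)⁻¹ := by rw [inv_z13]; group)
  exact hw1 (d.eq_one (aut13 (d.sq h hwV) ho (d.fix hc)))

/-- `v0 ∈ V`: every `x ∈ E#` is centralised by an element of `V` inducing an outer automorphism that centralises `B`. -/
theorem step (h : Cx V K) (hv : d.i v0 ∈ V) {x : Spor.Suz} (hx : x ∈ E) (hx1 : x ≠ 1) :
    ∃ w ∈ V, d.φ w x = x ∧ (¬ ∃ g, d.φ w = MulAut.conj g) ∧ ∀ b ∈ B, d.φ w b = b := by
  have := SporadicRecognition.SuzBound.finite_Suz
  have hv01 : v0 ≠ 1 := by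
    intro h1
    have h2 := v0_inv hx
    rw [h1] at h2
    apply hx1
    apply eq_one_of_sq_E hx
    rw [pow_two]
    have h3 : x = x⁻¹ := by simpa using h2
    nth_rw 1 [h3]
    exact inv_mul_cancel x
  have hv1 : d.i v0 ≠ 1 := by
    intro h1
    exact hv01 (d.iinj (by rw [h1, map_one]))
  have ho : Odd (orderOf (d.i x)) := by
    rw [orderOf_injective d.i d.iinj]
    have h3 : orderOf x ∣ 3 := orderOf_dvd_of_pow_eq_one (cube_E hx)
    exact Odd.of_dvd_nat (by decide) h3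
  obtain ⟨w, hwV, hw1, hwx, hwO⟩ := h.t1 hv hv1 ho (by
    rw [← map_inv, ← map_mul, ← map_mul, ← map_inv, v0_inv hx])
  set H : Subgroup G := centralizer ({d.i v0} : Set G) ⊓ centralizer ({d.i x} : Set G) with hH
  have hO : ∀ r : Spor.Suz, d.i r ∈ O2 H → r = 1 := by
    intro r hr
    have hR : (O2 H).comap d.i = ⊥ := by
      apply B_no_two
      · intro r hr
        have h1 : d.i r ∈ H := O2_le H hr
        obtain ⟨h2, h3⟩ := mem_inf.1 h1
        have h2' := mem_centralizer_singleton_iff.1 h2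
        have h3' := mem_centralizer_singleton_iff.1 h3
        rw [← map_mul, ← map_mul] at h2' h3'
        exact mem_B.2 ⟨CpAutSuz.ThreeC.cent_x hx hx1 (d.iinj h3'), (d.iinj h2').symm⟩
      · intro b hb r hr
        have h1 : d.i b ∈ H := by
          obtain ⟨h2, h3⟩ := mem_B.1 hb
          refine mem_inf.2 ⟨mem_centralizer_singleton_iff.2 ?_, mem_centralizer_singleton_iff.2 ?_⟩
          · rw [← map_mul, ← map_mul, h3]
          · rw [← map_mul, ← map_mul, comm_X h2 hx]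
        have h4 := conj_mem_O2 h1 (show d.i r ∈ O2 H from hr)
        show d.i (b * r * b⁻¹) ∈ O2 H
        rwa [map_mul, map_mul, map_inv]
      · exact (isPGroup_O2 H).comap_of_injective _ d.iinj
    have h1 : r ∈ (O2 H).comap d.i := hr
    rwa [hR, mem_bot] at h1
  refine ⟨w, hwV, d.fix hwx, ?_, ?_⟩
  · rintro ⟨s, hs⟩
    have h1 : w = d.i s := d.φinj (by rw [hs, d.hi])
    apply hw1
    rw [h1] at hwO
    rw [h1, hO s hwO, map_one]
  · intro b hb
    have h1 : d.i b ∈ H := by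
      obtain ⟨h2, h3⟩ := mem_B.1 hb
      refine mem_inf.2 ⟨mem_centralizer_singleton_iff.2 ?_, mem_centralizer_singleton_iff.2 ?_⟩
      · rw [← map_mul, ← map_mul, h3]
      · rw [← map_mul, ← map_mul, comm_X h2 hx]
    have h2 : d.i (d.φ w b * b⁻¹) ∈ O2 H := by
      rw [map_mul, ← d.conj_eq, map_inv]
      have h3 : w * d.i b * w⁻¹ * (d.i b)⁻¹ = w * (d.i b * w⁻¹ * (d.i b)⁻¹) := by group
      rw [h3]
      exact (O2 H).mul_mem hwO (conj_mem_O2 h1 ((O2 H).inv_mem hwO))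
    exact mul_inv_eq_one.1 (hO _ h2)

theorem inv_self_E {x : Spor.Suz} (hx : x ∈ E) (h : x⁻¹ = x) : x = 1 := by
  apply eq_one_of_sq_E hx
  rw [pow_two]
  nth_rw 1 [← h]
  exact inv_mul_cancel x

theorem kill_v0 (h : Cx V K) (hv : d.i v0 ∈ V) : False := by
  have := SporadicRecognition.SuzBound.finite_Suz
  obtain ⟨x, hx, hx1⟩ : ∃ x ∈ E, x ≠ 1 := by
    by_contra hc
    push Not at hc
    have h1 : E = ⊥ := (Subgroup.eq_bot_iff_forall _).2 hc
    have h2 := card_E
    rw [h1, Subgroup.card_bot] at h2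
    omega
  obtain ⟨w, hwV, hwx, hwo, hwB⟩ := d.step h hv hx hx1
  have hα2 := d.sq h hwV
  set α := d.φ w with hα
  have hαE : ∀ e ∈ E, α e ∈ E := fun e he => aut_E hx hx1 hwx he
  have hαα : ∀ e, α (α e) = e := by
    intro e
    rw [← MulAut.mul_apply, hα2, MulAut.one_apply]
  by_cases hfix : ∀ e ∈ E, α e = e
  · exact not_fix hα2 hwo hfix fun f hf => hwB f (F_le_B hf)
  push Not at hfix
  obtain ⟨e, he, hne⟩ := hfix
  obtain ⟨f, hf⟩ : ∃ f : Spor.Suz, f = e * (α e)⁻¹ := ⟨_, rfl⟩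
  have hfE : f ∈ E := by rw [hf]; exact mul_mem he (inv_mem (hαE e he))
  have hf1 : f ≠ 1 := by
    intro h1
    rw [hf] at h1
    exact hne (mul_inv_eq_one.1 h1).symm
  have hαf : α f = f⁻¹ := by
    rw [hf, map_mul, map_inv, hαα, mul_inv_rev, inv_inv]
  have hxf1 : x * f ≠ 1 := by
    intro h1
    have h2 : f = x⁻¹ := (inv_eq_of_mul_eq_one_right h1).symm
    apply hf1
    apply inv_self_E hfE
    rw [← hαf]
    rw [h2, map_inv, hwx]
  have hxfE : x * f ∈ E := mul_mem hx hfE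
  obtain ⟨w', hwV', hwx', hwo', hwB'⟩ := d.step h hv hxfE hxf1
  have hβ2 := d.sq h hwV'
  set β := d.φ w' with hβ
  have hβE : ∀ e ∈ E, β e ∈ E := fun e he => aut_E hxfE hxf1 hwx' he
  have hαβ : ∀ e, α (β e) = β (α e) := by
    intro e
    rw [← MulAut.mul_apply, ← MulAut.mul_apply, hα, hβ, ← map_mul, ← map_mul, (h.comm hwV hwV').eq]
  have hprod : β x * β f = x * f := by rw [← map_mul, hwx']
  set t : Spor.Suz := β x * x⁻¹ with ht
  have htE : t ∈ E := mul_mem (hβE x hx) (inv_mem hx)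
  have ht' : t = f * (β f)⁻¹ := by
    rw [ht, mul_inv_eq_iff_eq_mul]
    have h1 : β x = x * f * (β f)⁻¹ := by rw [← hprod]; group
    rw [h1, mul_assoc, E_ab x hx _ (mul_mem hfE (inv_mem (hβE f hfE)))]
  have h1 : α t = t := by
    rw [ht, map_mul, map_inv, hαβ, hwx]
  have h2 : α t = t⁻¹ := by
    rw [ht', map_mul, map_inv, hαβ, hαf, map_inv, inv_inv, mul_inv_rev, inv_inv]
    exact E_ab _ (inv_mem hfE) _ (hβE f hfE)
  have ht1 : t = 1 := inv_self_E htE (by rw [← h2, h1])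
  have hβx : β x = x := mul_inv_eq_one.1 ht1
  have hβf : β f = f := by
    rw [ht'] at ht1
    exact (mul_inv_eq_one.1 ht1).symm
  -- `E = ⟨x, f⟩`
  have h3 : E ≤ fixedSubgroup β := by
    let S : Subgroup Spor.Suz := E ⊓ fixedSubgroup β
    have hS : Nat.card S ∣ 9 := by
      rw [← card_E]
      exact Subgroup.card_dvd_of_le inf_le_left
    have hz : zpowers x ≤ S := zpowers_le.2 ⟨hx, hβx⟩
    have ho : orderOf x = 3 := by
      have : Fact (Nat.Prime 3) := ⟨Nat.prime_three⟩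
      exact orderOf_eq_prime (cube_E hx) hx1
    have hne : zpowers x ≠ S := by
      intro h4
      have h5 : f ∈ zpowers x := by
        rw [h4]
        exact ⟨hfE, hβf⟩
      obtain ⟨k, hk⟩ := mem_zpowers_iff.1 h5
      apply hf1
      apply inv_self_E hfE
      rw [← hαf, ← hk, map_zpow, hwx]
    have h3 : 3 < Nat.card S := by
      rw [← ho, ← Nat.card_zpowers]
      refine lt_of_le_of_ne (Nat.card_le_card_of_injective _ (Subgroup.inclusion_injective hz)) ?_
      intro h5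
      exact hne (Subgroup.eq_of_le_of_card_ge hz h5.ge)
    have h9 : Nat.card S = 9 := by
      have h5 := Nat.le_of_dvd (by norm_num) hS
      interval_cases (Nat.card S) <;> omega
    have h6 : S = E := Subgroup.eq_of_le_of_card_ge inf_le_left (by rw [h9, card_E])
    rw [← h6]
    exact inf_le_right
  exact not_fix hβ2 hwo' (fun e he => h3 he) fun f hf => hwB' f (F_le_B hf)

theorem kill_z0 (h : Cx V K) {g : Spor.Suz} (hv : d.i (g * z0 * g⁻¹) ∈ V) : False := by
  have h1 := H738.SK.conj h (d.i (el vu * g⁻¹))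
  apply d.kill_v0 h1
  refine ⟨_, hv, ?_⟩
  show d.i (el vu * g⁻¹) * d.i (g * z0 * g⁻¹) * (d.i (el vu * g⁻¹))⁻¹ = d.i v0
  rw [← map_inv, ← map_mul, ← map_mul, v0_eq]
  congr 1
  group

end Dat

theorem index_le (h : Cx V K) (e : K ≃* Spor.Suz) : K.index ≤ 2 := by
  obtain ⟨d⟩ := exists_dat h e
  have h1 : K = (MulAut.conj : Spor.Suz →* MulAut Spor.Suz).range.comap d.φ := by
    ext k
    constructor
    · intro hk
      obtain ⟨s, rfl⟩ := d.ex k hk
      exact ⟨s, (d.hi s).symm⟩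
    · rintro ⟨s, hs⟩
      have : k = d.i s := d.φinj (by rw [← hs, d.hi])
      rw [this]
      exact d.mem s
  have hn : (MulAut.conj : Spor.Suz →* MulAut Spor.Suz).range.Normal := by
    constructor
    rintro _ ⟨s, rfl⟩ α
    exact ⟨α s, KFacts.AutChain.conj_apply_eq α s⟩
  rw [h1, Subgroup.index_comap]
  have h2 := Subgroup.relIndex_dvd_index_of_normal (MulAut.conj : Spor.Suz →* MulAut Spor.Suz).range d.φ.range
  rcases KFacts.SuzOut.index_eq with h3 | h3
  · rw [h3] at h2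
    have := Nat.le_of_dvd (by norm_num) h2
    omega
  · rw [h3] at h2
    exact Nat.le_of_dvd (by norm_num) h2

theorem dead : DeadS.{u} (fun K _ => Spor.IsoSuz K) := by
  intro G _ _ V K h hK
  obtain ⟨e⟩ := hK
  obtain ⟨d⟩ := exists_dat h e
  obtain ⟨v, hv, hvK, hv1⟩ := H738.SK.exists_mem_K h (index_le h e)
  obtain ⟨t, rfl⟩ := d.ex v hvK
  have ht1 : t ≠ 1 := by
    rintro rfl
    exact hv1 (map_one _)
  have ht2 : t ^ 2 = 1 := by
    apply d.iinj
    rw [map_pow, pow_two, h.sq hv, map_one]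
  have : Fact (Nat.Prime 2) := ⟨Nat.prime_two⟩
  rcases CpAutSuz.Classes.exists_conj_inv (orderOf_eq_prime ht2 ht1) with ⟨g, hg⟩ | ⟨g, hg⟩
  · exact d.kill_z0 h (g := g) (by rw [hg]; exact hv)
  · exact d.kill_e0 h (g := g) (by rw [hg]; exact hv)

end Cfsg.Agent.H980.SK.Suz
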