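import Cfsg.Agent.CpAutSuz.ThreeC
import Cfsg.Agent.CpAutSuz.Classes
import Cfsg.Agent.H323.SuzOutB
import Cfsg.Agent.H474.Suz13.Main
import Cfsg.Agent.KFacts.SuzFix

/-!
# The Suzuki group: an involution inverting `E = 3²` and centralising `A₆`, one inverting an element of order 13 (helper980)

* `v0` of class 2A inverts `E` and centralises a subgroup `B` of `X = C(E) = C(x)` (`1 ≠ x ∈ E`) of order 360, with
  `B ≅ X / E` simple.
* `e0` of class 2B inverts an element of order 13.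
* the fixed subgroup of an outer involutory automorphism has no order divisible by 81 or 13.
-/

set_option autoImplicit false
set_option maxRecDepth 100000
set_option exponentiation.threshold 5000

namespace Cfsg.Agent.H980.SK.SuzW

open Subgroup Cfsg
open Cfsg.Spor Cfsg.Agent.Lib.PermNet Cfsg.Agent.Lib.PermNetOrbit Cfsg.Agent.SporadicRecognition.SuzPhi
  Cfsg.Agent.SporadicRecognition.SuzBound Cfsg.Agent.SporadicRecognition.SuzOrder
  Cfsg.Agent.SuzThree.Nets Cfsg.Agent.SuzThree.Basic Cfsg.Agent.SuzThree.Elts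
open Cfsg.Agent.SuzThree.CentA (z0)
open Cfsg.Agent.KFacts.SuzLFour
open Cfsg.Agent.PreUniq.Spor.SuzP

/-! ### The involution `v0` -/

def vu : List Suz.Gen := [.g, .f, .b, .g, .a, .b]
def vw : List Suz.Gen := cw vu [.a]

noncomputable def v0 : Suz := el vw

theorem v0_eq : v0 = el vu * z0 * (el vu)⁻¹ := el_cw vu [.a]

theorem v0_sq : v0 * v0 = 1 := by
  rw [v0_eq]
  have h1 : z0 * z0 = 1 := gen_sq .a
  calc el vu * z0 * (el vu)⁻¹ * (el vu * z0 * (el vu)⁻¹) = el vu * (z0 * z0) * (el vu)⁻¹ := by group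
    _ = 1 := by rw [h1]; group

theorem v0_x1 : v0 * el x1w * v0⁻¹ = (el x1w)⁻¹ := by
  have h1 : v0⁻¹ = v0 := inv_eq_of_mul_eq_one_left v0_sq
  rw [h1, ← el_reverse, v0, ← el_append, ← el_append]
  exact weq (by decide +kernel)

theorem v0_x2 : v0 * el x2w * v0⁻¹ = (el x2w)⁻¹ := by
  have h1 : v0⁻¹ = v0 := inv_eq_of_mul_eq_one_left v0_sq
  rw [h1, ← el_reverse, v0, ← el_append, ← el_append]
  exact weq (by decide +kernel)

theorem v0_w0 : v0 * el w0 = el w0 * v0 := comm_of (by decide +kernel)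
theorem v0_g1 : v0 * el g1w = el g1w * v0 := comm_of (by decide +kernel)
theorem v0_e0 : v0 * e0 = e0 * v0 := comm_of (by decide +kernel)
theorem v0_u : v0 * u = u * v0 := comm_of (by decide +kernel)

theorem v0_x0 : v0 * x0 = x0 * v0 := v0_w0

theorem v0_e1 : v0 * e1 = e1 * v0 := by
  have h1 : Commute v0 x0 := v0_x0
  have h2 : Commute v0 e0 := v0_e0
  exact ((h1.mul_right h2).mul_right h1.inv_right).eq

theorem v0_y : v0 * y = y * v0 := by
  have h1 : Commute v0 (el w0) := v0_w0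
  have h2 : Commute v0 e0 := v0_e0
  have h3 : Commute v0 (el g1w) := v0_g1
  have h4 : y = el g2w * el g1w := el_append _ _
  rw [h4, g2_eq]
  exact (((h2.mul_right h1).mul_right h2).mul_right h3).eq

/-- `v0` inverts `E` -/
theorem v0_inv {x : Suz} (hx : x ∈ E) : v0 * x * v0⁻¹ = x⁻¹ := by
  let S : Subgroup Suz :=
    { carrier := {x | x ∈ E ∧ v0 * x * v0⁻¹ = x⁻¹}
      one_mem' := ⟨one_mem _, by group⟩
      mul_mem' := by
        rintro a b ⟨ha, ha'⟩ ⟨hb, hb'⟩
        refine ⟨mul_mem ha hb, ?_⟩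
        calc v0 * (a * b) * v0⁻¹ = (v0 * a * v0⁻¹) * (v0 * b * v0⁻¹) := by group
          _ = a⁻¹ * b⁻¹ := by rw [ha', hb']
          _ = (b * a)⁻¹ := by group
          _ = (a * b)⁻¹ := by rw [E_ab b hb a ha]
      inv_mem' := by
        rintro a ⟨ha, ha'⟩
        refine ⟨inv_mem ha, ?_⟩
        calc v0 * a⁻¹ * v0⁻¹ = (v0 * a * v0⁻¹)⁻¹ := by group
          _ = _ := by rw [ha'] }
  have h1 : E ≤ S := by
    rw [E, closure_le]
    rintro _ (rfl | h)
    · exact ⟨x1E, v0_x1⟩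
    · rw [Set.mem_singleton_iff] at h
      subst h
      exact ⟨x2E, v0_x2⟩
  exact (h1 hx).2

theorem cube_E {x : Suz} (hx : x ∈ E) : x ^ 3 = 1 := CpAutSuz.ThreeC.cube_E hx

theorem eq_one_of_sq_E {x : Suz} (hx : x ∈ E) (h : x ^ 2 = 1) : x = 1 := by
  have h3 := cube_E hx
  calc x = x ^ 3 * (x ^ 2)⁻¹ := by group
    _ = 1 := by rw [h3, h]; group

/-! ### The subgroup `B ≅ A₆` -/

noncomputable def B : Subgroup Suz := X ⊓ centralizer ({v0} : Set Suz)

theorem mem_B {g : Suz} : g ∈ B ↔ g ∈ X ∧ v0 * g = g * v0 := by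
  rw [B, mem_inf, mem_centralizer_singleton_iff]
  exact ⟨fun h => ⟨h.1, h.2.symm⟩, fun h => ⟨h.1, h.2.symm⟩⟩

theorem E_inf_B {x : Suz} (hx : x ∈ E) (hb : x ∈ B) : x = 1 := by
  apply eq_one_of_sq_E hx
  have h1 := v0_inv hx
  rw [(mem_B.1 hb).2, mul_inv_cancel_right] at h1
  rw [pow_two]
  nth_rw 1 [h1]
  exact inv_mul_cancel _

theorem F_le_B : F ≤ B := by
  intro f hf
  refine mem_B.2 ⟨A_le (F_le_A hf), ?_⟩
  have h1 : F ≤ centralizer ({v0} : Set Suz) := by
    rw [F, closure_le]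
    rintro _ (rfl | h)
    · exact mem_centralizer_singleton_iff.2 v0_w0.symm
    · rw [Set.mem_singleton_iff] at h
      subst h
      exact mem_centralizer_singleton_iff.2 v0_g1.symm
  exact (mem_centralizer_singleton_iff.1 (h1 hf)).symm

theorem y_mem_B : y ∈ B := mem_B.2 ⟨A_le y_mem, v0_y⟩

theorem D_le_B : D ≤ B := by
  intro d hd
  refine mem_B.2 ⟨D_le hd, ?_⟩
  have h1 : D ≤ centralizer ({v0} : Set Suz) := by
    rw [D, closure_le]
    rintro _ (rfl | h)
    · exact mem_centralizer_singleton_iff.2 v0_e1.symm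
    · rw [Set.mem_singleton_iff] at h
      subst h
      exact mem_centralizer_singleton_iff.2 v0_u.symm
  exact (mem_centralizer_singleton_iff.1 (h1 hd)).symm

theorem dvd_B : 360 ∣ Nat.card B := by
  have := finSuz
  have h9 : 9 ∣ Nat.card B := by rw [← card_F]; exact card_dvd_of_le F_le_B
  have h8 : 8 ∣ Nat.card B := by
    obtain ⟨f⟩ := dih
    have h1 : Nat.card D = 8 := by rw [Nat.card_congr f.toEquiv, DihedralGroup.nat_card]
    rw [← h1]; exact card_dvd_of_le D_le_B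
  have h5 : 5 ∣ Nat.card B := by
    have : Fact (Nat.Prime 5) := ⟨Nat.prime_five⟩
    have h1 : orderOf (⟨y, y_mem_B⟩ : B) ∣ Nat.card B := orderOf_dvd_natCard _
    have h2 : orderOf (⟨y, y_mem_B⟩ : B) = 5 :=
      orderOf_eq_prime (Subtype.ext y_five) (fun h => y_ne (congrArg Subtype.val h))
    rwa [h2] at h1
  omega

/-- `B → X / E` -/
noncomputable def toQ : B →* X ⧸ E.subgroupOf X :=
  (QuotientGroup.mk' (E.subgroupOf X)).comp (Subgroup.inclusion (inf_le_left : B ≤ X))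

theorem toQ_inj : Function.Injective toQ := by
  rw [injective_iff_map_eq_one]
  intro b hb
  have h1 : Subgroup.inclusion (inf_le_left : B ≤ X) b ∈ E.subgroupOf X :=
    (QuotientGroup.eq_one_iff _).1 hb
  exact Subtype.ext (E_inf_B (mem_subgroupOf.1 h1) b.2)

theorem card_B : Nat.card B = 360 := by
  have := finSuz
  have h1 := Nat.card_le_card_of_injective toQ toQ_inj
  rw [CpAutSuz.ThreeC.card_quot] at h1
  have h2 := Nat.le_of_dvd Nat.card_pos dvd_B
  omega

theorem toQ_bij : Function.Bijective toQ := by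
  have := finSuz
  exact (Nat.bijective_iff_injective_and_card toQ).2 ⟨toQ_inj, by rw [card_B, CpAutSuz.ThreeC.card_quot]⟩

theorem simple_B : IsSimpleGroup B := by
  have := simple_X
  exact (MulEquiv.ofBijective toQ toQ_bij).isSimpleGroup

/-- `B` has no nontrivial normal 2-subgroup -/
theorem B_no_two {R : Subgroup Suz} (hR : R ≤ B) (hn : ∀ b ∈ B, ∀ r ∈ R, b * r * b⁻¹ ∈ R) (h2 : IsPGroup 2 R) :
    R = ⊥ := by
  have := finSuz
  have := simple_B
  have hN : (R.subgroupOf B).Normal := ⟨fun r hr b => hn b b.2 r hr⟩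
  rcases IsSimpleGroup.eq_bot_or_eq_top_of_normal _ hN with h | h
  · rw [subgroupOf_eq_bot] at h
    rw [← inf_eq_left.2 hR]
    exact disjoint_iff.1 h
  · exfalso
    have h1 : B ≤ R := subgroupOf_eq_top.1 h
    have h3 : IsPGroup 2 B := h2.to_le h1
    obtain ⟨n, hn⟩ := IsPGroup.iff_card.1 h3
    rw [card_B] at hn
    have h5 : 3 ∣ 2 ^ n := by rw [← hn]; norm_num
    have h6 := Nat.prime_three.dvd_of_dvd_pow h5
    omega

/-- the center of `X` -/
theorem center_X {z : Suz} (hz : z ∈ X) (hc : ∀ g ∈ X, g * z = z * g) : z ∈ E := by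
  have := simple_X
  have h1 : (QuotientGroup.mk' (E.subgroupOf X) ⟨z, hz⟩) ∈ center (X ⧸ E.subgroupOf X) := by
    rw [mem_center_iff]
    intro q
    obtain ⟨g, rfl⟩ := QuotientGroup.mk'_surjective _ q
    rw [← map_mul, ← map_mul]
    congr 1
    exact Subtype.ext (hc g g.2)
  rcases IsSimpleGroup.eq_bot_or_eq_top_of_normal (center (X ⧸ E.subgroupOf X)) inferInstance with h | h
  · rw [h, mem_bot, QuotientGroup.mk'_apply, QuotientGroup.eq_one_iff] at h1
    exact mem_subgroupOf.1 h1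
  · exfalso
    have := finSuz
    have hcm : ∀ a b : X ⧸ E.subgroupOf X, a * b = b * a := fun a b => by
      have h2 : b ∈ center (X ⧸ E.subgroupOf X) := h ▸ mem_top b
      exact mem_center_iff.1 h2 a
    let _ : CommGroup (X ⧸ E.subgroupOf X) := { (inferInstance : Group (X ⧸ E.subgroupOf X)) with mul_comm := hcm }
    have h3 := (IsSimpleGroup.prime_card (α := X ⧸ E.subgroupOf X))
    rw [CpAutSuz.ThreeC.card_quot] at h3
    exact absurd h3 (by norm_num)

/-- an automorphism fixing `x ∈ E#` normalises `E` -/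
theorem aut_E {α : MulAut Suz} {x : Suz} (hx : x ∈ E) (hx1 : x ≠ 1) (hα : α x = x) {e : Suz} (he : e ∈ E) :
    α e ∈ E := by
  have hX : ∀ β : MulAut Suz, β x = x → ∀ g ∈ X, β g ∈ X := by
    intro β hβ g hg
    apply CpAutSuz.ThreeC.cent_x hx hx1
    have h1 := congrArg β (comm_X hg hx)
    rw [map_mul, map_mul, hβ] at h1
    exact h1.symm
  have hα' : α⁻¹ x = x := by
    have h1 : α⁻¹ (α x) = x := by rw [← MulAut.mul_apply, inv_mul_cancel]; rfl
    rwa [hα] at h1
  apply center_X (hX α hα e (E_le_X he))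
  intro g hg
  have h1 := comm_X (hX α⁻¹ hα' g hg) he
  have h2 := congrArg α h1
  have h3 : α (α⁻¹ g) = g := by rw [← MulAut.mul_apply, mul_inv_cancel]; rfl
  rw [map_mul, map_mul, h3] at h2
  exact h2.symm

/-! ### Outer involutory automorphisms -/

theorem not81 {α : MulAut Suz} (h2 : α * α = 1) (ho : ¬ ∃ g, α = MulAut.conj g) :
    ¬ 81 ∣ Nat.card ↥(fixedSubgroup α) := by
  have hcj : ∀ (g : Suz) (β : MulAut Suz), MulAut.congr (MulAut.conj g) β = MulAut.conj g * β * (MulAut.conj g)⁻¹ := by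
    intro g β
    apply MulEquiv.ext
    intro a
    rfl
  rcases KFacts.SuzInvol.outer h2 (fun s hs => ho ⟨s, hs⟩) with ⟨g, hg⟩ | ⟨g, hg⟩
  · rw [hg, ← hcj, ← Nat.card_congr (CpAut.fixEquiv _ _).toEquiv]
    exact KFacts.SuzFix.card_rho fun g => Iff.rfl
  · rw [hg, ← hcj, ← Nat.card_congr (CpAut.fixEquiv _ _).toEquiv,
      KFacts.SuzFix.card_tau (F := fixedSubgroup (KFacts.SuzRho.rho * MulAut.conj (PresentedGroup.of Suz.Gen.e)))
        (fun g => by
          have h : KFacts.SuzRho.rho * MulAut.conj (PresentedGroup.of Suz.Gen.e) = KFacts.SuzFix.tau := by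
            rw [KFacts.SuzFix.tau]
            congr 2
          rw [h]
          exact Iff.rfl)]
    norm_num

/-- an outer involutory automorphism does not fix `E` and `F` -/
theorem not_fix {α : MulAut Suz} (h2 : α * α = 1) (ho : ¬ ∃ g, α = MulAut.conj g) (hE : ∀ e ∈ E, α e = e)
    (hF : ∀ f ∈ F, α f = f) : False := by
  have := finSuz
  apply not81 h2 ho
  have h1 : E ⊔ F ≤ fixedSubgroup α := sup_le (fun e he => hE e he) (fun f hf => hF f hf)
  have h3 := card_dvd_of_le h1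
  rwa [card_sup] at h3

/-! ### Order 13 -/

def tu : List Suz.Gen := [.d, .c, .b, .f, .e, .d, .c, .d, .e, .d, .a, .b, .c, .d]
def zw : List Suz.Gen := .e :: cw tu [.e]

noncomputable def z13 : Suz := el zw

theorem z13_eq : z13 = e0 * (el tu * e0 * (el tu)⁻¹) := by
  rw [z13, zw, el_cons, el_cw]
  rfl

theorem inv_z13 : e0 * z13 * e0⁻¹ = z13⁻¹ := by
  have h1 : e0⁻¹ = e0 := e0_inv
  rw [z13_eq]
  have h2 : e0 * (e0 * (el tu * e0 * (el tu)⁻¹)) * e0⁻¹ = (e0 * e0) * (el tu * e0 * (el tu)⁻¹) * e0⁻¹ := by group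
  rw [h2, e0_sq, mul_inv_rev, mul_inv_rev, mul_inv_rev, inv_inv, h1]
  group

theorem order_z13 : orderOf z13 = 13 := by
  have : Fact (Nat.Prime 13) := ⟨by norm_num⟩
  refine orderOf_eq_prime ?_ (ne_one_of 1 (by decide +kernel))
  rw [z13, CpAutSuz.Fix.el_pow]
  exact one_of (by decide +kernel)

/-- no involution commutes with an element of order 13 -/
theorem cent13 {x s : Suz} (hx : orderOf x = 13) (hs : s * x = x * s) (h2 : s * s = 1) : s = 1 := by
  have := finSuz
  obtain ⟨z, hz, hc⟩ := H474.Suz13.suz_thirteen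
  obtain ⟨g, hg⟩ := CpAutSuz.Fix.isConj_zpowers (l := 13) (by norm_num) (by rw [card_Suz]; norm_num) hx hz
  have h1 : z ∈ zpowers (g * x * g⁻¹) := hg ▸ mem_zpowers z
  obtain ⟨k, hk⟩ := mem_zpowers_iff.1 h1
  have h3 : Commute (g * s * g⁻¹) (g * x * g⁻¹) := by
    show g * s * g⁻¹ * (g * x * g⁻¹) = g * x * g⁻¹ * (g * s * g⁻¹)
    calc g * s * g⁻¹ * (g * x * g⁻¹) = g * (s * x) * g⁻¹ := by group
      _ = g * (x * s) * g⁻¹ := by rw [hs]
      _ = _ := by group
  have h4 : Commute (g * s * g⁻¹) z := by rw [← hk]; exact h3.zpow_right k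
  have h5 : orderOf (g * s * g⁻¹) ∣ 13 := by
    rw [← hc]
    exact Subgroup.orderOf_dvd_natCard _ (mem_centralizer_singleton_iff.2 h4.eq)
  have h6 : orderOf (g * s * g⁻¹) ∣ 2 := by
    apply orderOf_dvd_of_pow_eq_one
    calc (g * s * g⁻¹) ^ 2 = g * (s * s) * g⁻¹ := by rw [pow_two]; group
      _ = 1 := by rw [h2]; group
  have h7 : orderOf (g * s * g⁻¹) = 1 := Nat.Coprime.eq_one_of_dvd (by norm_num) (Nat.dvd_gcd h5 h6)
  have h8 := orderOf_eq_one_iff.1 h7
  calc s = g⁻¹ * (g * s * g⁻¹) * g := by group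
    _ = 1 := by rw [h8]; group

/-- no involutory automorphism fixes an element of order 13 -/
theorem aut13 {α : MulAut Suz} (h2 : α * α = 1) {x : Suz} (hx : orderOf x = 13) (hα : α x = x) : α = 1 := by
  by_contra h1
  have := finSuz
  by_cases ho : ∃ g, α = MulAut.conj g
  · obtain ⟨s, rfl⟩ := ho
    apply h1
    have h3 : s * s = 1 := KFacts.SuzInvol.conj_eq_one (by rw [map_mul, h2])
    have h4 : s * x * s⁻¹ = x := hα
    rw [cent13 hx (mul_inv_eq_iff_eq_mul.1 h4) h3, map_one]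
  · apply H323.SuzOut.not13 h2 ho
    have h3 := Subgroup.orderOf_dvd_natCard (fixedSubgroup α) (x := x) hα
    rwa [hx] at h3

end Cfsg.Agent.H980.SK.SuzW
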